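import Mathlib
import Cfsg.Agent.Lib.Helper32.P8.Tools
import Cfsg.Agent.Lib.Helper15.Scn.LemWtop

/-!
# S4409, package (C2)

If every `A`-invariant normal abelian subgroup of the finite 2-group `Y` is central, then
squares are central and commutators lie in `omZ Y`.  (`bigWZ Y` is the preimage of
`Ω₁(Z(Y / Z(Y)))`; the argument is that of `Helper15.Scn.centralizer_bigW_le` with `Z(Y)` in
place of `omZ Y`.)
-/

set_option autoImplicit false

universe u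

namespace Cfsg.Agent.Lib.Helper90.P8

open Cfsg.Agent.Lib.Helper32.Scn Cfsg.Agent.Lib.Helper32.P8
open Cfsg.Agent.Lib.Helper15.Scn (normal_meets_center eq_of_comm_eq_one)

variable {Y : Type u} [Group Y]

theorem zc {z : Y} (hz : z ∈ Subgroup.center Y) (g : Y) : g * z = z * g :=
  Subgroup.mem_center_iff.mp hz g

/-- The preimage of `Ω₁(Z(Y / Z(Y)))`. -/
def bigWZ (Y : Type u) [Group Y] : Subgroup Y where
  carrier := {w | w * w ∈ Subgroup.center Y ∧ ∀ g : Y, g * w * g⁻¹ * w⁻¹ ∈ Subgroup.center Y}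
  one_mem' := ⟨by simp [Subgroup.one_mem], fun g => by simp [Subgroup.one_mem]⟩
  mul_mem' := by
    rintro a b ⟨ha2, ha⟩ ⟨hb2, hb⟩
    refine ⟨?_, fun g => ?_⟩
    · have hc := ha b
      have e : a * b * (a * b) = (a * a) * (b * a * b⁻¹ * a⁻¹) * (b * b) := by
        calc a * b * (a * b) = a * (b * a * b⁻¹ * a⁻¹) * a * (b * b) := by group
          _ = a * ((b * a * b⁻¹ * a⁻¹) * a) * (b * b) := by group
          _ = a * (a * (b * a * b⁻¹ * a⁻¹)) * (b * b) := by rw [zc hc a]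
          _ = (a * a) * (b * a * b⁻¹ * a⁻¹) * (b * b) := by group
      rw [e]
      exact Subgroup.mul_mem _ (Subgroup.mul_mem _ ha2 hc) hb2
    · have h1 := ha g
      have h2 := hb g
      have e : g * (a * b) * g⁻¹ * (a * b)⁻¹
          = (g * a * g⁻¹ * a⁻¹) * (g * b * g⁻¹ * b⁻¹) := by
        calc g * (a * b) * g⁻¹ * (a * b)⁻¹
            = (g * a * g⁻¹ * a⁻¹) * (a * (g * b * g⁻¹ * b⁻¹)) * a⁻¹ := by group
          _ = (g * a * g⁻¹ * a⁻¹) * ((g * b * g⁻¹ * b⁻¹) * a) * a⁻¹ := by rw [zc h2 a]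
          _ = (g * a * g⁻¹ * a⁻¹) * (g * b * g⁻¹ * b⁻¹) := by group
      rw [e]
      exact Subgroup.mul_mem _ h1 h2
  inv_mem' := by
    rintro a ⟨ha2, ha⟩
    refine ⟨?_, fun g => ?_⟩
    · have : a⁻¹ * a⁻¹ = (a * a)⁻¹ := by group
      rw [this]; exact Subgroup.inv_mem _ ha2
    · have h1 := ha g
      have e : g * a⁻¹ * g⁻¹ * a⁻¹⁻¹ = a⁻¹ * (g * a * g⁻¹ * a⁻¹)⁻¹ * a := by group
      rw [e, zc (Subgroup.inv_mem _ h1) a⁻¹]
      have : (g * a * g⁻¹ * a⁻¹)⁻¹ * a⁻¹ * a = (g * a * g⁻¹ * a⁻¹)⁻¹ := by group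
      rw [this]; exact Subgroup.inv_mem _ h1

theorem mem_bigWZ {w : Y} : w ∈ bigWZ Y ↔
    w * w ∈ Subgroup.center Y ∧ ∀ g : Y, g * w * g⁻¹ * w⁻¹ ∈ Subgroup.center Y := Iff.rfl

theorem center_aut (ψ : MulAut Y) {z : Y} (hz : z ∈ Subgroup.center Y) :
    ψ z ∈ Subgroup.center Y := by
  rw [Subgroup.mem_center_iff]
  intro g
  have h := zc hz (ψ⁻¹ g)
  have h2 := congrArg ψ h
  simpa using h2

theorem bigWZ_aut (ψ : MulAut Y) {w : Y} (hw : w ∈ bigWZ Y) : ψ w ∈ bigWZ Y := by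
  refine ⟨?_, fun g => ?_⟩
  · rw [← map_mul]; exact center_aut ψ hw.1
  · have h := center_aut ψ (hw.2 (ψ⁻¹ g))
    simpa using h

instance bigWZ_normal : (bigWZ Y).Normal := by
  constructor
  intro w hw g
  have h := bigWZ_aut (MulAut.conj g) hw
  simpa using h

theorem commZ_mul_left {w : Y} (hw : w ∈ bigWZ Y) (x y : Y) :
    (x * y) * w * (x * y)⁻¹ * w⁻¹ = (x * w * x⁻¹ * w⁻¹) * (y * w * y⁻¹ * w⁻¹) := by
  have h := zc (hw.2 y) x
  calc (x * y) * w * (x * y)⁻¹ * w⁻¹ = (x * (y * w * y⁻¹ * w⁻¹)) * (w * x⁻¹ * w⁻¹) := by group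
    _ = ((y * w * y⁻¹ * w⁻¹) * x) * (w * x⁻¹ * w⁻¹) := by rw [h]
    _ = (y * w * y⁻¹ * w⁻¹) * (x * w * x⁻¹ * w⁻¹) := by group
    _ = (x * w * x⁻¹ * w⁻¹) * (y * w * y⁻¹ * w⁻¹) := (zc (hw.2 y) _).symm

theorem commZ_sq {w : Y} (hw : w ∈ bigWZ Y) (x : Y) :
    (x * w * x⁻¹ * w⁻¹) * (x * w * x⁻¹ * w⁻¹) = 1 := by
  have hc := hw.2 x
  have h1 : x * (w * w) * x⁻¹ = w * w := by rw [zc hw.1 x]; group
  have h2 : x * (w * w) * x⁻¹ =
      (x * w * x⁻¹ * w⁻¹) * (x * w * x⁻¹ * w⁻¹) * (w * w) := by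
    calc x * (w * w) * x⁻¹ = (x * w * x⁻¹ * w⁻¹) * (w * (x * w * x⁻¹ * w⁻¹)) * w := by group
      _ = (x * w * x⁻¹ * w⁻¹) * ((x * w * x⁻¹ * w⁻¹) * w) * w := by rw [zc hc w]
      _ = (x * w * x⁻¹ * w⁻¹) * (x * w * x⁻¹ * w⁻¹) * (w * w) := by group
  rw [h1] at h2
  have h3 : 1 * (w * w) = (x * w * x⁻¹ * w⁻¹) * (x * w * x⁻¹ * w⁻¹) * (w * w) := by
    rw [one_mul]; exact h2
  exact (mul_right_cancel h3).symm

theorem sqZ_centralizes {w : Y} (hw : w ∈ bigWZ Y) (x : Y) : (x * x) * w = w * (x * x) := by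
  have h1 := commZ_mul_left hw x x
  rw [commZ_sq hw x] at h1
  exact eq_of_comm_eq_one h1

theorem commZ_inv_left {w : Y} (hw : w ∈ bigWZ Y) (x : Y) :
    x⁻¹ * w * x⁻¹⁻¹ * w⁻¹ = x * w * x⁻¹ * w⁻¹ := by
  have h1 := commZ_mul_left hw x x⁻¹
  have h2 : (x * x⁻¹) * w * (x * x⁻¹)⁻¹ * w⁻¹ = 1 := by group
  rw [h2] at h1
  have h3 := commZ_sq hw x
  have h4 : (x * w * x⁻¹ * w⁻¹) * (x⁻¹ * w * x⁻¹⁻¹ * w⁻¹)
      = (x * w * x⁻¹ * w⁻¹) * (x * w * x⁻¹ * w⁻¹) := by rw [← h1, h3]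
  exact mul_left_cancel h4

theorem commZ_centralizes {w : Y} (hw : w ∈ bigWZ Y) (g x : Y) :
    (g * x * g⁻¹ * x⁻¹) * w = w * (g * x * g⁻¹ * x⁻¹) := by
  apply eq_of_comm_eq_one
  rw [commZ_mul_left hw (g * x * g⁻¹) x⁻¹, commZ_mul_left hw (g * x) g⁻¹,
    commZ_mul_left hw g x, commZ_inv_left hw g, commZ_inv_left hw x]
  have hg := hw.2 g
  calc (g * w * g⁻¹ * w⁻¹) * (x * w * x⁻¹ * w⁻¹) * (g * w * g⁻¹ * w⁻¹) * (x * w * x⁻¹ * w⁻¹)
      = (g * w * g⁻¹ * w⁻¹) * ((x * w * x⁻¹ * w⁻¹) * (g * w * g⁻¹ * w⁻¹)) *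
          (x * w * x⁻¹ * w⁻¹) := by simp only [mul_assoc]
    _ = (g * w * g⁻¹ * w⁻¹) * ((g * w * g⁻¹ * w⁻¹) * (x * w * x⁻¹ * w⁻¹)) *
          (x * w * x⁻¹ * w⁻¹) := by rw [zc hg (x * w * x⁻¹ * w⁻¹)]
    _ = ((g * w * g⁻¹ * w⁻¹) * (g * w * g⁻¹ * w⁻¹)) *
          ((x * w * x⁻¹ * w⁻¹) * (x * w * x⁻¹ * w⁻¹)) := by simp only [mul_assoc]
    _ = 1 := by rw [commZ_sq hw g, commZ_sq hw x, one_mul]

/-- `C_Y(bigWZ Y) ≤ Z(Y)` when `Z(bigWZ Y) ≤ Z(Y)` in a finite 2-group. -/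
theorem centralizer_bigWZ_le [Finite Y] (h2 : IsPGroup 2 Y)
    (hZ : ∀ w ∈ bigWZ Y, (∀ w' ∈ bigWZ Y, w * w' = w' * w) → w ∈ Subgroup.center Y)
    (d : Y) (hd : ∀ w ∈ bigWZ Y, d * w = w * d) : d ∈ Subgroup.center Y := by
  classical
  by_contra hdV
  have : Fact (Nat.Prime 2) := ⟨Nat.prime_two⟩
  let C : Subgroup Y := Subgroup.centralizer (bigWZ Y : Set Y)
  have hdC : d ∈ C := by
    rw [Subgroup.mem_centralizer_iff]
    intro w hw
    exact (hd w hw).symm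
  let π : Y →* Y ⧸ Subgroup.center Y := QuotientGroup.mk' (Subgroup.center Y)
  have hπsurj : Function.Surjective π := QuotientGroup.mk'_surjective _
  let N : Subgroup (Y ⧸ Subgroup.center Y) := C.map π
  have hNn : N.Normal := Subgroup.Normal.map inferInstance π hπsurj
  have hQ : IsPGroup 2 (Y ⧸ Subgroup.center Y) := h2.to_quotient (Subgroup.center Y)
  have hπ1 : ∀ x : Y, π x = 1 ↔ x ∈ Subgroup.center Y := fun x => QuotientGroup.eq_one_iff x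
  let K : Subgroup (Y ⧸ Subgroup.center Y) := N ⊓ Subgroup.center (Y ⧸ Subgroup.center Y)
  have hK1 : K ≠ ⊥ := by
    have hN1 : N ≠ ⊥ := by
      intro hb
      have : π d ∈ N := Subgroup.mem_map_of_mem π hdC
      rw [hb, Subgroup.mem_bot, hπ1] at this
      exact hdV this
    obtain ⟨y, hyN, hyZ, hy1⟩ := normal_meets_center hQ N hN1
    intro hb
    have : y ∈ K := ⟨hyN, hyZ⟩
    rw [hb, Subgroup.mem_bot] at this
    exact hy1 this
  have hKp : IsPGroup 2 K := hQ.to_subgroup K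
  have h2K : 2 ∣ Nat.card K := by
    obtain ⟨n, hn⟩ := IsPGroup.iff_card.mp hKp
    have hn0 : n ≠ 0 := by
      rintro rfl
      rw [pow_zero] at hn
      exact hK1 ((Subgroup.card_eq_one).mp hn)
    rw [hn]
    exact dvd_pow_self 2 hn0
  obtain ⟨k, hk⟩ := exists_prime_orderOf_dvd_card' (G := K) 2 h2K
  have hk1 : (k : Y ⧸ Subgroup.center Y) ≠ 1 := by
    intro hc
    have : k = 1 := Subtype.ext hc
    rw [this, orderOf_one] at hk
    norm_num at hk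
  have hk2 : (k : Y ⧸ Subgroup.center Y) * (k : Y ⧸ Subgroup.center Y) = 1 := by
    have := pow_orderOf_eq_one k
    rw [hk] at this
    have h3 := congrArg Subtype.val this
    simpa [pow_two] using h3
  have hkN : (k : Y ⧸ Subgroup.center Y) ∈ N := k.2.1
  have hkZ : (k : Y ⧸ Subgroup.center Y) ∈ Subgroup.center (Y ⧸ Subgroup.center Y) := k.2.2
  obtain ⟨e, heC, hek⟩ := Subgroup.mem_map.mp hkN
  have heV : e ∉ Subgroup.center Y := by
    intro hc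
    rw [← hπ1, hek] at hc
    exact hk1 hc
  have heW : e ∈ bigWZ Y := by
    refine ⟨?_, fun g => ?_⟩
    · rw [← hπ1, map_mul, hek]
      exact hk2
    · rw [← hπ1, map_mul, map_mul, map_mul, map_inv, map_inv, hek]
      have := Subgroup.mem_center_iff.mp hkZ (π g)
      rw [this]
      group
  apply heV
  apply hZ e heW
  intro w' hw'
  rw [Subgroup.mem_centralizer_iff] at heC
  exact (heC w' hw').symm

/-- **(C2)** -/
theorem lemC2 : LemC2.{u} := by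
  intro Y _ _ A h2 hB
  have hZW : ∀ w ∈ bigWZ Y, (∀ w' ∈ bigWZ Y, w * w' = w' * w) → w ∈ Subgroup.center Y := by
    intro w hw hcw
    obtain ⟨B, hBdef⟩ : ∃ B : Subgroup Y,
        B = bigWZ Y ⊓ Subgroup.centralizer (bigWZ Y : Set Y) := ⟨_, rfl⟩
    have hmemB : ∀ b : Y, b ∈ B ↔ b ∈ bigWZ Y ∧ ∀ w' ∈ bigWZ Y, b * w' = w' * b := by
      intro b
      rw [hBdef, Subgroup.mem_inf, Subgroup.mem_centralizer_iff]
      constructor
      · rintro ⟨h1, h3⟩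
        exact ⟨h1, fun w' hw' => (h3 w' hw').symm⟩
      · rintro ⟨h1, h3⟩
        exact ⟨h1, fun w' hw' => (h3 w' hw').symm⟩
    have haut : ∀ ψ : MulAut Y, ∀ b ∈ B, ψ b ∈ B := by
      intro ψ b hb
      rw [hmemB] at hb ⊢
      refine ⟨bigWZ_aut ψ hb.1, fun w' hw' => ?_⟩
      have h1 := hb.2 (ψ⁻¹ w') (bigWZ_aut ψ⁻¹ hw')
      have h3 := congrArg ψ h1
      simpa using h3
    have hBn : B.Normal := by
      constructor
      intro b hb g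
      have h := haut (MulAut.conj g) b hb
      simpa using h
    have hBab : ∀ a ∈ B, ∀ b ∈ B, a * b = b * a := by
      intro a ha b hb
      exact ((hmemB a).1 ha).2 b ((hmemB b).1 hb).1
    exact hB B hBn (fun φ _ b hb => haut φ b hb) hBab ((hmemB w).2 ⟨hw, hcw⟩)
  have hsq : ∀ x : Y, x * x ∈ Subgroup.center Y := fun x =>
    centralizer_bigWZ_le h2 hZW (x * x) (fun w hw => sqZ_centralizes hw x)
  have hcz : ∀ x y : Y, x * y * x⁻¹ * y⁻¹ ∈ Subgroup.center Y := fun x y =>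
    centralizer_bigWZ_le h2 hZW (x * y * x⁻¹ * y⁻¹) (fun w hw => commZ_centralizes hw x y)
  exact ⟨hsq, fun x y => ⟨hcz x y, commZ_sq ⟨hsq y, fun g => hcz g y⟩ x⟩⟩

end Cfsg.Agent.Lib.Helper90.P8
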