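import Mathlib
import Cfsg.Agent.Lib.Helper32.P8.Tools
import Cfsg.Agent.Lib.Helper13.Scn.Tools13

/-!
# S4409: common tools for the packages (ES) and (Qt2)

`Y` a group with squares and commutators in `V = omZ Y`, `Z(Y) ≤ V`, `|V| = 2`: centralizers of
noncentral elements have index 2, and there is an abelian subgroup of order 8 containing `V`
as soon as `16 ≤ |Y|`.
-/

set_option autoImplicit false

universe u

namespace Cfsg.Agent.Lib.Helper90.P8

open Cfsg.Agent.Lib.Helper32.Scn Cfsg.Agent.Lib.Helper32.P8 Cfsg.Agent.Lib.Helper13.Scn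

variable {Y : Type u} [Group Y]

theorem Cx_index_two [Finite Y] (hc : ∀ x y : Y, x * y * x⁻¹ * y⁻¹ ∈ omZ Y)
    (hZ : ∀ z : Y, z ∈ Subgroup.center Y → z ∈ omZ Y) (hV : Nat.card (omZ Y) = 2) {x : Y}
    (hx : x ∉ omZ Y) : (Cx hc x).index = 2 := by
  have h1 := Cx_index_dvd hc x
  rw [hV] at h1
  have h2 : (Cx hc x).index ≠ 1 := by
    intro h
    exact Cx_ne_top hc (fun hxc => hx (hZ x hxc)) (Subgroup.index_eq_one.1 h)
  rcases (Nat.dvd_prime Nat.prime_two).1 h1 with h | h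
  · exact absurd h h2
  · exact h

theorem card_Cx [Finite Y] (hc : ∀ x y : Y, x * y * x⁻¹ * y⁻¹ ∈ omZ Y)
    (hZ : ∀ z : Y, z ∈ Subgroup.center Y → z ∈ omZ Y) (hV : Nat.card (omZ Y) = 2) {x : Y}
    (hx : x ∉ omZ Y) : 2 * Nat.card (Cx hc x) = Nat.card Y := by
  have h := (Cx hc x).card_mul_index
  rw [Cx_index_two hc hZ hV hx] at h
  omega

/-- An abelian subgroup of order 8 containing `V`, `x`, `y` with `x, y, x * y ∉ V`. -/
theorem exists_K [Finite Y] (hZ : ∀ z : Y, z ∈ Subgroup.center Y → z ∈ omZ Y)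
    (hs : ∀ x : Y, x * x ∈ omZ Y) (hc : ∀ x y : Y, x * y * x⁻¹ * y⁻¹ ∈ omZ Y)
    (hV : Nat.card (omZ Y) = 2) (h16 : 16 ≤ Nat.card Y) :
    ∃ (x y : Y) (K : Subgroup Y), x ∉ omZ Y ∧ y ∉ omZ Y ∧ x * y ∉ omZ Y ∧ x ∈ K ∧ y ∈ K ∧
      omZ Y ≤ K ∧ Nat.card K = 8 ∧ ∀ a ∈ K, ∀ b ∈ K, a * b = b * a := by
  have htop : Nat.card (⊤ : Subgroup Y) = Nat.card Y := Subgroup.card_top
  obtain ⟨x, -, hx⟩ := exists_mem_not_mem (K := (⊤ : Subgroup Y)) (H := omZ Y) (by omega)
  obtain ⟨K₀, hK₀def⟩ : ∃ K₀ : Subgroup Y, K₀ = omZ Y ⊔ Subgroup.zpowers x := ⟨_, rfl⟩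
  have hK₀ : Nat.card K₀ = 4 := by
    have h1 := card_sup_zpowers_le hc hs (le_refl (omZ Y)) x
    have h2 := card_sup_zpowers_ge (H := omZ Y) hx
    rw [hK₀def]
    omega
  have hVK₀ : omZ Y ≤ K₀ := by rw [hK₀def]; exact le_sup_left
  have hxK₀ : x ∈ K₀ := by
    rw [hK₀def]; exact Subgroup.mem_sup_right (Subgroup.mem_zpowers x)
  have hCx := card_Cx hc hZ hV hx
  obtain ⟨y, hyC, hyK₀⟩ := exists_mem_not_mem (K := Cx hc x) (H := K₀) (by omega)
  obtain ⟨K, hKdef⟩ : ∃ K : Subgroup Y, K = K₀ ⊔ Subgroup.zpowers y := ⟨_, rfl⟩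
  have hK : Nat.card K = 8 := by
    have h1 := card_sup_zpowers_le hc hs hVK₀ y
    have h2 := card_sup_zpowers_ge (H := K₀) hyK₀
    rw [hKdef]
    omega
  have hxy : y * x = x * y := (mem_Cx hc).1 hyC
  have hK₀K : K₀ ≤ K := by rw [hKdef]; exact le_sup_left
  have hyK : y ∈ K := by
    rw [hKdef]; exact Subgroup.mem_sup_right (Subgroup.mem_zpowers y)
  refine ⟨x, y, K, hx, fun h => hyK₀ (hVK₀ h), ?_, hK₀K hxK₀, hyK, hVK₀.trans hK₀K, hK, ?_⟩
  · intro h
    apply hyK₀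
    have e : y = x⁻¹ * (x * y) := by group
    rw [e]
    exact K₀.mul_mem (K₀.inv_mem hxK₀) (hVK₀ h)
  · have key : ∀ a : Y, a * x = x * a → a * y = y * a → ∀ b ∈ K, a * b = b * a := by
      intro a hax hay b hb
      have hle : K ≤ Subgroup.centralizer ({a} : Set Y) := by
        rw [hKdef, hK₀def]
        refine sup_le (sup_le ?_ ?_) ?_
        · intro v hv
          rw [Subgroup.mem_centralizer_iff]
          intro z hz
          rw [Set.mem_singleton_iff] at hz
          rw [hz]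
          exact omZ_comm hv a
        · rw [Subgroup.zpowers_le, Subgroup.mem_centralizer_iff]
          intro z hz
          rw [Set.mem_singleton_iff] at hz
          rw [hz]
          exact hax
        · rw [Subgroup.zpowers_le, Subgroup.mem_centralizer_iff]
          intro z hz
          rw [Set.mem_singleton_iff] at hz
          rw [hz]
          exact hay
      exact Subgroup.mem_centralizer_iff.1 (hle hb) a (Set.mem_singleton a)
    intro a ha b hb
    have hax : a * x = x * a := (key x rfl hxy.symm a ha).symm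
    have hay : a * y = y * a := (key y hxy rfl a ha).symm
    exact key a hax hay b hb

end Cfsg.Agent.Lib.Helper90.P8
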