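import Mathlib
import Cfsg.Agent.Lib.Helper90.P8.Common

/-!
# S4409, package (ES): an "extraspecial" 2-group does not have order 16
-/

set_option autoImplicit false

universe u

namespace Cfsg.Agent.Lib.Helper90.P8

open Cfsg.Agent.Lib.Helper32.Scn Cfsg.Agent.Lib.Helper32.P8 Cfsg.Agent.Lib.Helper13.Scn

/-- **(ES)** -/
theorem lemEs : LemEs.{u} := by
  intro Y _ _ _ hZ hs hc hV h16
  obtain ⟨x, y, K, hx, hy, hxy, hxK, hyK, hVK, hK8, hKab⟩ := exists_K hZ hs hc hV (by omega)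
  have htop : Nat.card (⊤ : Subgroup Y) = Nat.card Y := Subgroup.card_top
  obtain ⟨g, -, hgK⟩ := exists_mem_not_mem (K := (⊤ : Subgroup Y)) (H := K) (by omega)
  have hb : ∃ b ∈ K, b ∉ omZ Y ∧ b * g = g * b := by
    by_cases h1 : cHom hc g x = 1
    · exact ⟨x, hxK, hx, (cHom_eq_one_iff hc).1 h1⟩
    by_cases h2' : cHom hc g y = 1
    · exact ⟨y, hyK, hy, (cHom_eq_one_iff hc).1 h2'⟩
    · refine ⟨x * y, K.mul_mem hxK hyK, hxy, (cHom_eq_one_iff hc).1 ?_⟩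
      rw [map_mul, eq_of_card_two hV (cHom_mem hc g x) (cHom_mem hc g y) h1 h2']
      exact cHom_sq hc g y
  obtain ⟨b, hbK, hbV, hbg⟩ := hb
  have h3 : 2 * Nat.card (Cx hc b) = Nat.card Y := card_Cx hc hZ hV hbV
  have hle : K ≤ Cx hc b := fun k hk => (mem_Cx hc).2 (hKab k hk b hbK)
  have heq : K = Cx hc b := Subgroup.eq_of_le_of_card_ge hle (by omega)
  apply hgK
  rw [heq]
  exact (mem_Cx hc).2 hbg.symm

end Cfsg.Agent.Lib.Helper90.P8
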