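import Mathlib
import Cfsg.Agent.Lib.Helper32.P8.Tools

/-!
# S4409, package (M): the minimality of `S` in `H`-invariant form
-/

set_option autoImplicit false

universe u

namespace Cfsg.Agent.Lib.Helper90.P8

open Cfsg.Agent.Lib.Helper32.P8
open scoped Pointwise

/-- **(M)** -/
theorem lemM : LemM.{u} := by
  intro S _ _ H X hX hcard hmin N hNX hHN hB
  classical
  obtain ⟨B, hBN, hB8⟩ := hB
  have hidx : H.index = Nat.card X := by
    have h3 := H.card_mul_index
    have hpos : 0 < Nat.card H := Nat.card_pos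
    exact Nat.eq_of_mul_eq_mul_left hpos (h3.trans hcard.symm)
  have hR : N ⊔ H = ⊤ := by
    by_contra hne
    apply hmin (N ⊔ H) hne
    · obtain ⟨n, hn⟩ := IsPGroup.iff_card.1 hX
      have h1 : (N ⊔ H).index ∣ H.index := Subgroup.index_dvd_of_le le_sup_right
      rw [hidx, hn] at h1
      obtain ⟨k, -, hk⟩ := (Nat.dvd_prime_pow Nat.prime_two).1 h1
      exact ⟨k, hk⟩
    · exact ⟨B, hBN.trans le_sup_left, hB8⟩
  have h1 : Nat.card S ≤ Nat.card N * Nat.card H := by
    have h2 : ((N ⊔ H : Subgroup S) : Set S) = (N : Set S) * (H : Set S) :=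
      Subgroup.coe_mul_of_right_le_normalizer_left N H hHN
    have h3 : Nat.card S = Nat.card ↥((N : Set S) * (H : Set S)) := by
      rw [← h2, hR, Subgroup.coe_top]
      exact (Nat.card_congr (Equiv.Set.univ S)).symm
    rw [h3]
    exact Set.natCard_mul_le
  have h4 : Nat.card X ≤ Nat.card N := by
    have hpos : 0 < Nat.card H := Nat.card_pos
    rw [← hcard, mul_comm] at h1
    exact Nat.le_of_mul_le_mul_right h1 hpos
  exact Subgroup.eq_of_le_of_card_ge hNX h4

end Cfsg.Agent.Lib.Helper90.P8
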