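import Mathlib
import Cfsg.Agent.Lib.Helper90.P8.Common

/-!
# S4409, package (Qt2): centre of order 2, order at least 16: there is a `P8`-subgroup
-/

set_option autoImplicit false

universe u

namespace Cfsg.Agent.Lib.Helper90.P8

open Cfsg.Agent.Lib.Helper32.Scn Cfsg.Agent.Lib.Helper32.P8 Cfsg.Agent.Lib.Helper13.Scn

/-- **(Qt2)** -/
theorem lemQt2 : LemQt2.{u} := by
  intro Y _ _ _ _ hZ hs hc hV h16
  obtain ⟨x, y, K, hx, hy, hxy, hxK, hyK, hVK, hK8, hKab⟩ := exists_K hZ hs hc hV h16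
  refine ⟨K, isMulCommutative_iff.2 (fun a b => Subtype.ext (hKab a a.2 b b.2)), ?_, hK8⟩
  intro hcyc
  obtain ⟨k, hk⟩ := hcyc.exists_generator
  have h4 : k ^ 4 = 1 := by
    have h1 := omZ_sq (hs (k : Y))
    apply Subtype.ext
    rw [Subgroup.coe_pow, Subgroup.coe_one]
    calc (k : Y) ^ 4 = ((k : Y) ^ 2) ^ 2 := by rw [← pow_mul]
      _ = ((k : Y) * k) * ((k : Y) * k) := by rw [pow_two, pow_two]
      _ = 1 := h1
  have h5 : orderOf k = Nat.card K := orderOf_eq_card_of_forall_mem_zpowers hk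
  have h6 : orderOf k ∣ 4 := orderOf_dvd_of_pow_eq_one h4
  have h7 := Nat.le_of_dvd (by norm_num) h6
  omega

end Cfsg.Agent.Lib.Helper90.P8
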